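import Groth.Prelude.Def_Grpd

/-!
# The shear square of a groupoid scheme

For a groupoid scheme `(U, R, s, t, c)`, the map `(α, β) ↦ α⁻¹ β` from `R ×_{t,U,t} R` to `R` is a base
change of `s`, and the diagonal of `t` is the base change of the identity section along it.
-/

set_option autoImplicit false
universe u
open CategoryTheory CategoryTheory.Limits AlgebraicGeometry

namespace Groth.Agent.Old.H27.GrpdShear

variable {S : Scheme.{u}} (G : Grpd.GroupoidScheme S) {T T' : Scheme.{u}}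

/-- `(α, β) ↦ α β` on points. -/
noncomputable def mul (α β : T ⟶ G.R) (h : α ≫ G.s = β ≫ G.t) : T ⟶ G.R :=
  pullback.lift α β h ≫ G.c

lemma mul_congr {α α' β β' : T ⟶ G.R} (hα : α = α') (hβ : β = β') (h : α ≫ G.s = β ≫ G.t) :
    mul G α β h = mul G α' β' (by rw [← hα, ← hβ, h]) := by
  subst hα hβ; rfl

lemma comp_mul (v : T' ⟶ T) (α β : T ⟶ G.R) (h : α ≫ G.s = β ≫ G.t) :
    v ≫ mul G α β h = mul G (v ≫ α) (v ≫ β) (by rw [Category.assoc, Category.assoc, h]) := by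
  unfold mul
  rw [← Category.assoc]
  congr 1
  apply pullback.hom_ext
  · rw [Category.assoc, pullback.lift_fst, pullback.lift_fst]
  · rw [Category.assoc, pullback.lift_snd, pullback.lift_snd]

lemma mul_s (α β : T ⟶ G.R) (h : α ≫ G.s = β ≫ G.t) : mul G α β h ≫ G.s = β ≫ G.s :=
  G.comp_s α β h

lemma mul_t (α β : T ⟶ G.R) (h : α ≫ G.s = β ≫ G.t) : mul G α β h ≫ G.t = α ≫ G.t :=
  G.comp_t α β h

lemma mul_assoc (α β γ : T ⟶ G.R) (h₁ : α ≫ G.s = β ≫ G.t) (h₂ : β ≫ G.s = γ ≫ G.t) :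
    mul G (mul G α β h₁) γ ((mul_s G α β h₁).trans h₂) =
      mul G α (mul G β γ h₂) (h₁.trans (mul_t G β γ h₂).symm) :=
  G.assoc α β γ h₁ h₂

lemma mul_one (α : T ⟶ G.R) (β : T ⟶ G.R) (hβ : β = α ≫ G.s ≫ G.e)
    (h : α ≫ G.s = β ≫ G.t) : mul G α β h = α := by
  subst hβ
  exact G.comp_e α

lemma one_mul (α : T ⟶ G.R) (β : T ⟶ G.R) (hβ : β = α ≫ G.t ≫ G.e)
    (h : β ≫ G.s = α ≫ G.t) : mul G β α h = α := by
  subst hβ
  exact G.e_comp α

lemma inv_s (α : T ⟶ G.R) : (α ≫ G.i) ≫ G.s = α ≫ G.t := by rw [Category.assoc, G.i_s]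
lemma inv_t (α : T ⟶ G.R) : (α ≫ G.i) ≫ G.t = α ≫ G.s := by rw [Category.assoc, G.i_t]

lemma inv_mul (α : T ⟶ G.R) (β : T ⟶ G.R) (hβ : β = α ≫ G.i) (h : β ≫ G.s = α ≫ G.t) :
    mul G β α h = α ≫ G.s ≫ G.e := by
  subst hβ
  exact G.i_comp α

lemma mul_inv (α : T ⟶ G.R) (β : T ⟶ G.R) (hβ : β = α ≫ G.i) (h : α ≫ G.s = β ≫ G.t) :
    mul G α β h = α ≫ G.t ≫ G.e := by
  subst hβ
  exact G.comp_i α

/-- `(α, β) ↦ α⁻¹ β` on points. -/
noncomputable def dmul (α β : T ⟶ G.R) (h : α ≫ G.t = β ≫ G.t) : T ⟶ G.R :=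
  mul G (α ≫ G.i) β ((inv_s G α).trans h)

lemma dmul_congr {α α' β β' : T ⟶ G.R} (hα : α = α') (hβ : β = β') (h : α ≫ G.t = β ≫ G.t) :
    dmul G α β h = dmul G α' β' (by rw [← hα, ← hβ, h]) := by
  subst hα hβ; rfl

lemma dmul_t (α β : T ⟶ G.R) (h : α ≫ G.t = β ≫ G.t) : dmul G α β h ≫ G.t = α ≫ G.s :=
  (mul_t G _ _ _).trans (inv_t G α)

lemma dmul_s (α β : T ⟶ G.R) (h : α ≫ G.t = β ≫ G.t) : dmul G α β h ≫ G.s = β ≫ G.s :=
  mul_s G _ _ _

lemma comp_dmul (v : T' ⟶ T) (α β : T ⟶ G.R) (h : α ≫ G.t = β ≫ G.t) :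
    v ≫ dmul G α β h = dmul G (v ≫ α) (v ≫ β) (by rw [Category.assoc, Category.assoc, h]) := by
  unfold dmul
  rw [comp_mul]
  exact mul_congr G (Category.assoc _ _ _).symm rfl _

lemma dmul_self (α β : T ⟶ G.R) (hab : α = β) (h : α ≫ G.t = β ≫ G.t) :
    dmul G α β h = α ≫ G.s ≫ G.e := by
  subst hab
  exact inv_mul G α _ rfl _

/-- `α (α⁻¹ β) = β`. -/
lemma mul_dmul (α β : T ⟶ G.R) (h : α ≫ G.t = β ≫ G.t) :
    mul G α (dmul G α β h) (dmul_t G α β h).symm = β := by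
  have h1 := mul_assoc G α (α ≫ G.i) β (inv_t G α).symm ((inv_s G α).trans h)
  refine h1.symm.trans ?_
  refine one_mul G β _ ?_ _
  rw [mul_inv G α _ rfl, ← Category.assoc, h, Category.assoc]

/-- `α⁻¹ (α γ) = γ`. -/
lemma dmul_mul (α γ : T ⟶ G.R) (h : α ≫ G.s = γ ≫ G.t) :
    dmul G α (mul G α γ h) (mul_t G α γ h).symm = γ := by
  have h1 := mul_assoc G (α ≫ G.i) α γ (inv_s G α) h
  refine h1.symm.trans ?_
  refine one_mul G γ _ ?_ _
  rw [inv_mul G α _ rfl, ← Category.assoc, h, Category.assoc]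

lemma eq_of_dmul (α β : T ⟶ G.R) (h : α ≫ G.t = β ≫ G.t) (x : T ⟶ G.U)
    (hx : dmul G α β h = x ≫ G.e) : α = β ∧ α ≫ G.s = x := by
  have h1 : α ≫ G.s = x := by
    rw [← dmul_t G α β h, hx, Category.assoc, G.e_t, Category.comp_id]
  refine ⟨?_, h1⟩
  subst h1
  have h2 := mul_dmul G α β h
  rw [← h2]
  exact (mul_one G α _ (by rw [hx, Category.assoc]) _).symm

/-- `R ×_{t,U,t} R → R`, `(α, β) ↦ α⁻¹ β`. -/
noncomputable def sub : pullback G.t G.t ⟶ G.R :=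
  dmul G (pullback.fst _ _) (pullback.snd _ _) pullback.condition

lemma comp_sub (v : T ⟶ pullback G.t G.t) :
    v ≫ sub G = dmul G (v ≫ pullback.fst _ _) (v ≫ pullback.snd _ _)
      (by rw [Category.assoc, Category.assoc, pullback.condition]) := comp_dmul G _ _ _ _

/-- The diagonal of `t` is a base change of the identity section. -/
theorem isPullback_diagonal : IsPullback (pullback.diagonal G.t) G.s (sub G) G.e := by
  refine ⟨⟨?_⟩, ⟨PullbackCone.IsLimit.mk _ (fun r => r.fst ≫ pullback.fst G.t G.t) ?_ ?_ ?_⟩⟩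
  · rw [comp_sub]
    refine (dmul_self G _ _ (by simp) _).trans ?_
    rw [pullback.diagonal_fst, Category.id_comp]
  · intro r
    have h1 := (comp_sub G r.fst).symm.trans r.condition
    obtain ⟨h2, -⟩ := eq_of_dmul G _ _ _ _ h1
    apply pullback.hom_ext
    · simp
    · simpa using h2
  · intro r
    have h1 := (comp_sub G r.fst).symm.trans r.condition
    exact (eq_of_dmul G _ _ _ _ h1).2
  · intro r m h1 h2
    rw [← h1]
    simp

/-- The map `(α, β) ↦ α⁻¹ β` is a base change of `s`. -/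
theorem isPullback_sub_fst : IsPullback (sub G) (pullback.fst G.t G.t) G.t G.s := by
  refine ⟨⟨dmul_t G _ _ _⟩, ⟨PullbackCone.IsLimit.mk _ (fun r =>
    pullback.lift r.snd (mul G r.snd r.fst r.condition.symm) (mul_t G _ _ _).symm) ?_ ?_ ?_⟩⟩
  · intro r
    rw [comp_sub]
    rw [dmul_congr G (pullback.lift_fst _ _ _) (pullback.lift_snd _ _ _)]
    exact dmul_mul G _ _ _
  · intro r
    exact pullback.lift_fst _ _ _
  · intro r m h1 h2
    apply pullback.hom_ext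
    · rw [pullback.lift_fst, h2]
    · rw [pullback.lift_snd]
      rw [comp_sub] at h1
      have h3 := mul_dmul G (m ≫ pullback.fst _ _) (m ≫ pullback.snd _ _)
        (by rw [Category.assoc, Category.assoc, pullback.condition])
      rw [← h3]
      exact mul_congr G h2 h1 _

end Groth.Agent.Old.H27.GrpdShear
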